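import Cfsg.Agent.H355.PQ.Defs

/-!
# S4612, PSL-D5a: regular unipotent elements (helper618)
-/

set_option autoImplicit false

open Cfsg Module

namespace Cfsg.Agent.H618.PQL

open Cfsg.Agent.H355.PQ

universe u

/-- the shift -/
def shf (F : Type u) [Field F] (a : ℕ) : (Fin a → F) →ₗ[F] (Fin a → F) where
  toFun x i := if h : i.1 + 1 < a then x ⟨i.1 + 1, h⟩ else 0
  map_add' x y := by
    funext i
    rw [Pi.add_apply]
    split_ifs
    · rfl
    · rw [add_zero]
  map_smul' c x := by
    funext i
    rw [Pi.smul_apply, RingHom.id_apply]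
    split_ifs
    · rfl
    · rw [smul_zero]

variable {F : Type u} [Field F] {a : ℕ}

theorem shf_apply (x : Fin a → F) (i : Fin a) : shf F a x i = if h : i.1 + 1 < a then x ⟨i.1 + 1, h⟩ else 0 := rfl

theorem shf_pow_apply (k : ℕ) (x : Fin a → F) (i : Fin a) :
    (shf F a ^ k) x i = if h : i.1 + k < a then x ⟨i.1 + k, h⟩ else 0 := by
  induction k generalizing i with
  | zero =>
    rw [pow_zero, Module.End.one_apply, dif_pos (by rw [add_zero]; exact i.2)]
    rfl
  | succ k ih =>
    rw [pow_succ', Module.End.mul_apply, shf_apply]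
    by_cases h : i.1 + 1 < a
    · rw [dif_pos h, ih]
      have e : i.1 + 1 + k = i.1 + (k + 1) := by omega
      by_cases h2 : i.1 + (k + 1) < a
      · rw [dif_pos h2, dif_pos (by rw [e]; exact h2)]
        congr 1
        exact Fin.ext e
      · rw [dif_neg h2, dif_neg (by rw [e]; exact h2)]
    · rw [dif_neg h, dif_neg (by omega)]

theorem shf_pow_eq_zero {k : ℕ} (hk : a ≤ k) : shf F a ^ k = 0 := by
  apply LinearMap.ext
  intro x
  funext i
  rw [shf_pow_apply, dif_neg (by omega)]
  rfl

theorem mem_ker_iff {k : ℕ} {x : Fin a → F} : x ∈ LinearMap.ker (shf F a ^ k) ↔ ∀ i : Fin a, k ≤ i.1 → x i = 0 := by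
  rw [LinearMap.mem_ker]
  constructor
  · intro h i hi
    have h1 := congrFun h (⟨i.1 - k, by have := i.2; omega⟩ : Fin a)
    rw [shf_pow_apply, dif_pos (by change i.1 - k + k < a; have := i.2; omega)] at h1
    have e : (⟨(i.1 - k) + k, by have := i.2; omega⟩ : Fin a) = i := Fin.ext (by change i.1 - k + k = i.1; omega)
    rw [← e]
    exact h1
  · intro h
    funext i
    rw [shf_pow_apply]
    split_ifs with h1
    · exact h _ (by change k ≤ i.1 + k; omega)
    · rfl

theorem finrank_ker {k : ℕ} (hk : k ≤ a) : finrank F (LinearMap.ker (shf F a ^ k)) = k := by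
  let e : LinearMap.ker (shf F a ^ k) ≃ₗ[F] (Fin k → F) :=
    { toFun := fun x j => x.1 (Fin.castLE hk j)
      map_add' := fun x y => rfl
      map_smul' := fun c x => rfl
      invFun := fun y => ⟨fun i => if h : i.1 < k then y ⟨i.1, h⟩ else 0, mem_ker_iff.2 fun i hi => dif_neg (by omega)⟩
      left_inv := fun x => by
        apply Subtype.ext
        funext i
        change (if h : i.1 < k then x.1 (Fin.castLE hk ⟨i.1, h⟩) else 0) = x.1 i
        split_ifs with h
        · rfl
        · exact (mem_ker_iff.1 x.2 i (by omega)).symm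
      right_inv := fun y => by
        funext j
        change (if h : (Fin.castLE hk j).1 < k then y ⟨(Fin.castLE hk j).1, h⟩ else 0) = y j
        rw [dif_pos (by rw [Fin.val_castLE]; exact j.2)]
        rfl }
  rw [e.finrank_eq, finrank_fin_fun]

theorem exists_reg (F : Type u) [Field F] [Finite F] {r : ℕ} [CharP F r] (a : ℕ) :
    ∃ J : (Fin a → F) ≃ₗ[F] (Fin a → F), (∃ m : ℕ, J ^ r ^ m = 1) ∧ LinearEquiv.det J = 1 ∧
      ∀ k ≤ a, inv k (J : (Fin a → F) →ₗ[F] (Fin a → F)) = 1 := by
  classical
  have hr : Fact r.Prime := ⟨CharP.char_is_prime F r⟩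
  have hr1 : 1 < r := hr.out.one_lt
  set N : Module.End F (Fin a → F) := shf F a with hN
  have hC : CharP (Module.End F (Fin a → F)) r ∨ a = 0 := by
    rcases Nat.eq_zero_or_pos a with h0 | h0
    · exact Or.inr h0
    · have : Nonempty (Fin a) := ⟨⟨0, h0⟩⟩
      exact Or.inl (charP_of_injective_algebraMap (algebraMap F (Module.End F (Fin a → F))).injective r)
  have hpow : (1 + N) ^ r ^ a = 1 := by
    rcases hC with hC | h0
    · have h1 : ((1 : Module.End F (Fin a → F)) + N) ^ r ^ a = 1 ^ r ^ a + N ^ r ^ a :=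
        add_pow_char_pow_of_commute (p := r) a (Commute.one_left N)
      rw [h1, one_pow, shf_pow_eq_zero (Nat.lt_pow_self hr1).le, add_zero]
    · subst h0
      exact Subsingleton.elim _ _
  have hinj : Function.Injective ((1 + N : Module.End F (Fin a → F)) : (Fin a → F) → (Fin a → F)) := by
    rw [← LinearMap.ker_eq_bot, LinearMap.ker_eq_bot']
    intro x hx
    have h1 : ((1 + N) ^ r ^ a) x = x := by rw [hpow]; rfl
    have h2 : 0 < r ^ a := by positivity
    obtain ⟨t, ht⟩ : ∃ t, r ^ a = t + 1 := ⟨r ^ a - 1, by omega⟩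
    rw [ht, pow_succ, Module.End.mul_apply, hx, map_zero] at h1
    exact h1.symm
  let J : (Fin a → F) ≃ₗ[F] (Fin a → F) := LinearEquiv.ofInjectiveEndo (1 + N) hinj
  have hJ : (J : (Fin a → F) →ₗ[F] (Fin a → F)) = 1 + N := rfl
  have hJx : ∀ x, J x = x + N x := fun x => by
    have := LinearMap.congr_fun hJ x
    exact this
  have hJp : J ^ r ^ a = 1 := by
    apply LinearEquiv.toLinearMap_injective
    have h1 := map_pow (LinearEquiv.automorphismGroup.toLinearMapMonoidHom (R := F) (M := Fin a → F)) J (r ^ a)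
    have h2 : LinearEquiv.automorphismGroup.toLinearMapMonoidHom J = 1 + N := hJ
    rw [h2, hpow] at h1
    exact h1
  refine ⟨J, ⟨a, hJp⟩, ?_, fun k hk => ?_⟩
  · have h1 : LinearEquiv.det J ^ r ^ a = 1 := by rw [← map_pow, hJp, map_one]
    apply Units.ext
    have h2 := congrArg Units.val h1
    rw [Units.val_pow_eq_pow_val, Units.val_one, ← mul_one (r ^ a), ExpChar.pow_prime_pow_mul_eq_one_iff, pow_one] at h2
    exact h2
  · have hcomm : ∀ (j : ℕ) x, (N ^ j) (J x) = J ((N ^ j) x) := by
      intro j x
      rw [hJx, hJx, map_add]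
      congr 1
      rw [← Module.End.mul_apply, ← Module.End.mul_apply, ← pow_succ, ← pow_succ']
    have huniq : ∀ W : Submodule F (Fin a → F), finrank F W = k → W.map (J : (Fin a → F) →ₗ[F] (Fin a → F)) = W →
        W = LinearMap.ker (N ^ k) := by
      intro W hW hJW
      have hNW : ∀ x ∈ W, N x ∈ W := by
        intro x hx
        have h1 : J x ∈ W := by
          rw [← hJW]
          exact Submodule.mem_map_of_mem hx
        have h2 : N x = J x - x := by rw [hJx]; abel
        rw [h2]
        exact W.sub_mem h1 hx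
      have hle : W ≤ LinearMap.ker (N ^ k) := by
        intro x hx
        have h1 : ∀ (j : ℕ) (y : W), (((N.restrict hNW) ^ j) y : Fin a → F) = (N ^ j) y := by
          intro j
          induction j with
          | zero => intro y; rfl
          | succ j ih =>
            intro y
            rw [pow_succ, pow_succ, Module.End.mul_apply, Module.End.mul_apply, ih]
            rfl
        have h2 := Module.End.ker_pow_le_ker_pow_finrank (N.restrict hNW) a
          (show (⟨x, hx⟩ : W) ∈ LinearMap.ker ((N.restrict hNW) ^ a) by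
            rw [LinearMap.mem_ker]
            apply Subtype.ext
            rw [h1, hN, shf_pow_eq_zero le_rfl]
            rfl)
        rw [LinearMap.mem_ker, hW] at h2
        rw [LinearMap.mem_ker, ← h1 k ⟨x, hx⟩, h2]
        rfl
      exact Submodule.eq_of_le_of_finrank_eq hle (by rw [hW, hN, finrank_ker hk])
    have hinv : (LinearMap.ker (N ^ k)).map (J : (Fin a → F) →ₗ[F] (Fin a → F)) = LinearMap.ker (N ^ k) := by
      apply le_antisymm
      · rintro _ ⟨x, hx, rfl⟩
        rw [LinearMap.mem_ker]
        change (N ^ k) (J x) = 0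
        rw [hcomm, LinearMap.mem_ker.1 hx, map_zero]
      · intro y hy
        refine ⟨J.symm y, ?_, J.apply_symm_apply y⟩
        rw [SetLike.mem_coe, LinearMap.mem_ker]
        apply J.injective
        rw [← hcomm, LinearEquiv.apply_symm_apply, LinearMap.mem_ker.1 hy, map_zero]
    unfold inv
    rw [Nat.card_eq_one_iff_unique]
    exact ⟨⟨fun W W' => Subtype.ext ((huniq _ W.2.1 W.2.2).trans (huniq _ W'.2.1 W'.2.2).symm)⟩,
      ⟨⟨LinearMap.ker (N ^ k), by rw [hN, finrank_ker hk], hinv⟩⟩⟩

end Cfsg.Agent.H618.PQL
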